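import Groth.Agent.CurvesA.EtFieldTors

/-!
# Top degree cohomology over fields: the core argument

If `F ≠ 0` is a finite sheaf on `Spec K` killed by `ℓ`, `H^q(Spec E, F) = 0` for all finite separable `E/K` and
`H^{q+1}(Spec E, G) = 0` for all `G` killed by `ℓ`, then `H^q` vanishes on all sheaves killed by `ℓ`.
-/

set_option autoImplicit false

universe w v u

open CategoryTheory Category Limits Opposite AlgebraicGeometry Abelian
open Groth.Agent.CurvesA Groth.Agent.CurvesA.EtFieldObj Groth.Agent.CurvesA.EtFieldDesc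
open Groth.Agent.CurvesA.EtFieldTr Groth.Agent.CurvesA.EtFieldFin Groth.Agent.CurvesA.ExtMid
open Groth.Agent.CurvesA.EtFieldFilt Groth.Agent.CurvesA.EtFieldTors

namespace Groth.Agent.Sga2lef.H97.TopCore

/-- Right exactness in the top degree. -/
theorem van_of_epi {𝒜 : Type u} [Category.{v} 𝒜] [Abelian 𝒜] [HasExt.{w} 𝒜]
    {Z : 𝒜} {q : ℕ} {F G : 𝒜} (p : F ⟶ G) [Epi p] (h : Van Z q F)
    (hk : Van Z (q + 1) (kernel p)) : Van Z q G := by
  let S : ShortComplex 𝒜 := ShortComplex.mk (kernel.ι p) p (kernel.condition p)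
  have hS : S.ShortExact :=
    { exact := ShortComplex.exact_of_f_is_kernel _ (kernelIsKernel p)
      mono_f := inferInstanceAs (Mono (kernel.ι p))
      epi_g := inferInstanceAs (Epi p) }
  intro x
  obtain ⟨y, rfl⟩ := Ext.covariant_sequence_exact₃ Z hS x (rfl : q + 1 = q + 1) (hk _)
  rw [h y, Ext.zero_comp]

variable {K : Type u} [Field K]

section Quot

variable {N : Type u} [Field N] [Algebra K N] [FiniteDimensional K N] [IsGalois K N]

/-- A nonzero finite sheaf killed by `ℓ` and split by an `ℓ`-extension surjects onto `ℤ/ℓ`. -/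
theorem exists_epi_const (ℓ : ℕ) [Fact ℓ.Prime] (r : ℕ) (hN : Nat.card (N ≃ₐ[K] N) = ℓ ^ r)
    (n : ℕ) :
    ∀ (G : EtCoh.Ab (Spec (CommRingCat.of K))) (_ : Split N G) (_ : EtCoh.KilledBy ℓ G)
      (_ : Finite (G.obj.obj (op (etObj K N)))) (_ : Nat.card (G.obj.obj (op (etObj K N))) = n)
      (_ : ¬ IsZero G), ∃ p : G ⟶ EtCoh.const (Spec (CommRingCat.of K)) (ZMod ℓ), Epi p := by
  induction n using Nat.strong_induction_on with
  | _ n ih =>
    intro G hG hK hfin hn hG0
    have h0 : ∃ a : G.obj.obj (op (etObj K N)), a ≠ 0 := by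
      by_contra h
      push Not at h
      exact hG0 (hG.isZero h)
    obtain ⟨a, ha⟩ := h0
    obtain ⟨t, ht⟩ := exists_fixed ℓ r hN G hK hfin a ha
    let f : ZL K K ⟶ G := SiteZU.lift t
    let p := Limits.factorThruImage f
    let i := Limits.image.ι f
    have hf : i.hom.app _ (p.hom.app _ (SiteZU.univ (etObj K K))) = t := by
      have h1 := congrArg SiteZU.ev (Limits.image.fac f)
      rw [SiteZU.ev_lift] at h1
      exact h1
    have hs0 : p.hom.app _ (SiteZU.univ (etObj K K)) ≠ 0 := by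
      intro h
      rw [h, map_zero] at hf
      exact ht hf.symm
    have hsℓ : ℓ • p.hom.app _ (SiteZU.univ (etObj K K)) = 0 := by
      apply app_injective i
      rw [map_nsmul, hf, map_zero]
      exact hK _ t
    obtain ⟨e⟩ := nonempty_const_iso ℓ p hs0 hsℓ
    by_cases hc : IsZero (cokernel i)
    · have : Epi i := Preadditive.epi_of_isZero_cokernel _ hc
      have : IsIso i := isIso_of_mono_of_epi i
      exact ⟨inv i ≫ e.inv, inferInstance⟩
    · obtain ⟨h1, h2⟩ := hG.of_epi (cokernel.π i)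
      have hfin' : Finite ((cokernel i).obj.obj (op (etObj K N))) := Finite.of_surjective _ h2
      obtain ⟨p', hp'⟩ := ih _ (by
        rw [← hn]
        refine lt_of_le_of_ne (Nat.card_le_card_of_surjective _ h2) fun h3 => ?_
        have h4 := (Nat.bijective_iff_surjective_and_card _).2 ⟨h2, h3.symm⟩
        have h5 : (cokernel.π i).hom.app _ (G.obj.map (can K K N).op t) = 0 := by
          rw [nat_apply]
          have h6 : (cokernel.π i).hom.app _ t = 0 := by
            rw [← hf]
            exact congrArg (fun φ => φ.hom.app (op (etObj K K))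
              (p.hom.app _ (SiteZU.univ (etObj K K)))) (cokernel.condition i)
          rw [h6, map_zero]
        have h6 := h4.1 (h5.trans (map_zero _).symm)
        exact ht (map_injective G (can K K N) (h6.trans (map_zero _).symm))) (cokernel i) h1
        (EtKilled.KilledBy.of_epi (cokernel.π i) hK) hfin' rfl hc
      exact ⟨cokernel.π i ≫ p', inferInstance⟩

end Quot

/-- The restriction of a nonzero sheaf to a finite separable extension is nonzero. -/
theorem not_isZero_R (L : Type u) [Field L] [Algebra K L] [FiniteDimensional K L]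
    [Algebra.IsSeparable K L] {F : EtCoh.Ab (Spec (CommRingCat.of K))} (hF : ¬ IsZero F) :
    ¬ IsZero (R L F) := by
  intro h
  apply hF
  rw [IsZero.iff_id_eq_zero]
  ext U a
  refine sect_ext fun N _ _ _ _ b => ?_
  obtain ⟨M, _, _, _, _, ⟨φ⟩, ⟨ψ⟩⟩ := exists_galois (K := K) N L
  refine map_injective F (etMap φ) ?_
  let _ : Algebra L M := ψ.toRingHom.toAlgebra
  have : IsScalarTower K L M := IsScalarTower.of_algebraMap_eq fun r => (ψ.commutes r).symm
  have : FiniteDimensional L M := Module.Finite.right K L M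
  have : Algebra.IsSeparable L M := Algebra.isSeparable_tower_top_of_isSeparable K L M
  have key : ∀ y : F.obj.obj (op (etObj K M)), y = 0 := by
    intro y
    apply (bijective_iso F (compIso (K := K) (L := L) M)).1
    rw [map_zero]
    have h1 : 𝟙 (R L F) = 0 := (IsZero.iff_id_eq_zero _).1 h
    have h2 := congrArg (fun φ : R L F ⟶ R L F => φ.hom.app (op (etObj L M))
      (F.obj.map (compIso (K := K) (L := L) M).hom.op y)) h1
    exact h2
  rw [key (F.obj.map (etMap φ).op _), key (F.obj.map (etMap φ).op _)]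

/-- **Top degree.** -/
theorem van_of_killedBy_prime' (ℓ : ℕ) [Fact ℓ.Prime] (q : ℕ)
    (F : EtCoh.Ab (Spec (CommRingCat.of K))) (hFK : EtCoh.KilledBy ℓ F) (hF0 : ¬ IsZero F)
    (hFf : Fin' F)
    (hq : ∀ (E : Type u) [Field E] [Algebra K E] [FiniteDimensional K E] [Algebra.IsSeparable K E],
      Van (ZL E E) q (R E F))
    (hq1 : ∀ (E : Type u) [Field E] [Algebra K E] [FiniteDimensional K E]
      [Algebra.IsSeparable K E] (G : EtCoh.Ab (Spec (CommRingCat.of E))), EtCoh.KilledBy ℓ G →
        Van (ZL E E) (q + 1) G)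
    (G : EtCoh.Ab (Spec (CommRingCat.of K))) (hG : EtCoh.KilledBy ℓ G)
    (L : Type u) [Field L] [Algebra K L] [FiniteDimensional K L] [Algebra.IsSeparable K L] :
    Van (ZL K L) q G := by
  have hℓ : ℓ.Prime := Fact.out
  intro x
  obtain ⟨F', i, x', hF', hi, rfl⟩ := exists_fin_sub (fin_ZL L) x
  have hK' : EtCoh.KilledBy ℓ F' := EtKilled.KilledBy.of_mono i hG
  suffices Van (ZL K L) q F' by rw [this x', Ext.zero_comp]
  obtain ⟨N₀, _, _, _, _, hN₀⟩ := hF'
  obtain ⟨N₁, _, _, _, _, hN₁⟩ := hFf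
  obtain ⟨N₂, _, _, _, _, ⟨φ₀⟩, ⟨φ₁⟩⟩ := exists_galois (K := K) N₀ N₁
  obtain ⟨N, _, _, _, _, ⟨φ⟩, ⟨ψ⟩⟩ := exists_galois (K := K) L N₂
  have hN := hN₀.mono (etMap ψ ≫ etMap φ₀)
  have hNF := hN₁.mono (etMap ψ ≫ etMap φ₁)
  let _ : Algebra L N := φ.toRingHom.toAlgebra
  have : IsScalarTower K L N := IsScalarTower.of_algebraMap_eq fun r => (φ.commutes r).symm
  have : FiniteDimensional L N := Module.Finite.right K L N
  have : IsGalois L N := IsGalois.tower_top_of_isGalois K L N
  obtain ⟨L', ⟨n, hn⟩, hdvd⟩ := GalStep.exists_sylow_field L N ℓ hℓ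
  have : IsScalarTower K L L' := inferInstance
  have : IsScalarTower K L' N := IsScalarTower.of_algebraMap_eq fun r => by
    rw [IsScalarTower.algebraMap_apply K L N, IsScalarTower.algebraMap_apply K L L']
    rfl
  have : FiniteDimensional K L' := FiniteDimensional.left K L' N
  have : Algebra.IsSeparable K L' := Algebra.isSeparable_tower_bot_of_isSeparable K L' N
  have : IsGalois L' N := inferInstance
  obtain ⟨t, ht⟩ := exists_transfer (K := K) (L := L) (L' := L') (M := N)
  refine ExtMid.eq_zero_of_transfer _ t _ ht ℓ ((Nat.Prime.coprime_iff_not_dvd hℓ).2 hdvd).symm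
    ((EtKilled.killedBy_iff ℓ F').1 hK') q ?_
  apply van_ZL_iff
  refine EtFieldFilt.van ℓ q ?_ n hn _ (R L' F') (split_R hN.1) (killedBy_R ℓ hK')
    (finite_R (finite_of_killedBy hN ℓ hℓ.ne_zero fun a => hK' _ a)) rfl
  obtain ⟨p, hp⟩ := exists_epi_const ℓ n hn _ (R L' F) (split_R hNF.1) (killedBy_R ℓ hFK)
    (finite_R (finite_of_killedBy hNF ℓ hℓ.ne_zero fun a => hFK _ a)) rfl (not_isZero_R L' hF0)
  exact van_of_epi p (hq L') (hq1 L' _ (EtKilled.KilledBy.of_mono (kernel.ι p) (killedBy_R ℓ hFK)))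

end Groth.Agent.Sga2lef.H97.TopCore
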